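import Groth.Agent.Dual.H375.ExtRestr
import Groth.Agent.Dual.H375.StalkIso
import Groth.Agent.Dual.H366.ExtQCoh
import Groth.Agent.Smoothlim.ConormalRes
import Groth.Agent.VarietyB.PullSec
import Groth.Agent.PerfA.IdealModule

/-!
# Gluing morphisms of modules, exterior powers of differentials and smooth loci over a disjoint open cover
-/

set_option autoImplicit false
set_option linter.style.haveILetI false
universe u

open CategoryTheory CategoryTheory.Limits AlgebraicGeometry Opposite TopologicalSpace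

namespace Groth.Agent.Dual.H328.ClopenGlue

open Groth.Agent.Sga67.Sec Groth.Agent.Dual.H375

variable {X : Scheme.{u}}

/-- Sections over the empty open subset. -/
theorem sec_subsingleton (M : X.Modules) (V : X.Opens) (hV : V = ⊥) : Subsingleton (Sec M V) := by
  subst hV
  refine ⟨fun s t => eq_of_locally M fun x hx => ?_⟩
  exact hx.elim

section Hom

variable {ι : Type*} (U : ι → X.Opens) (hU : iSup U = ⊤) (hd : ∀ i j, i ≠ j → Disjoint (U i) (U j))

/-- Images of opens of the members of the cover. -/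
def im (p : Σ i, (U i).toScheme.Opens) : X.Opens := (U p.1).ι ''ᵁ p.2

theorem im_le (p : Σ i, (U i).toScheme.Opens) : im U p ≤ U p.1 := by
  rintro x ⟨y, -, rfl⟩
  exact y.2

include hU in
theorem isBasis_im : Opens.IsBasis (Set.range (im U)) := by
  rw [Opens.isBasis_iff_nbhd]
  intro V x hx
  obtain ⟨i, hi⟩ : ∃ i, x ∈ U i := by
    have : x ∈ iSup U := by rw [hU]; trivial
    exact Opens.mem_iSup.mp this
  refine ⟨im U ⟨i, (U i).ι ⁻¹ᵁ V⟩, ⟨_, rfl⟩, ⟨⟨x, hi⟩, hx, rfl⟩, ?_⟩
  rintro y ⟨z, hz, rfl⟩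
  exact hz

include hU hd in
/-- Morphisms over the members of a disjoint open cover glue. -/
theorem exists_hom {M N : X.Modules} (α : ∀ i, M.restrict (U i).ι ⟶ N.restrict (U i).ι) :
    ∃ β : M ⟶ N, ∀ i, (Scheme.Modules.restrictFunctor (U i).ι).map β = α i := by
  let φ : ∀ p : Σ i, (U i).toScheme.Opens, Sec M (im U p) →ₗ[Γ(X, im U p)] Sec N (im U p) := fun p =>
    { toFun := fun s => (appS (α p.1) p.2 s : Sec (N.restrict (U p.1).ι) p.2)
      map_add' := fun s t => (appS (α p.1) p.2).map_add s t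
      map_smul' := fun r s => by
        have h1 := (appS (α p.1) p.2).map_smul (show Γ((U p.1).toScheme, p.2) from r) s
        rw [ExtRestr.smul_eq, ExtRestr.smul_eq] at h1
        exact h1 }
  have hφ : ∀ (p q : Σ i, (U i).toScheme.Opens) (h : im U q ≤ im U p) (s : Sec M (im U p)),
      φ q (res M h s) = res N h (φ p s) := by
    rintro ⟨i, V⟩ ⟨j, W⟩ h s
    by_cases hij : i = j
    · subst hij
      have hWV : W ≤ V := by
        intro x hx
        obtain ⟨y, hy, hxy⟩ := h ⟨x, hx, rfl⟩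
        have : y = x := (U i).ι.isOpenEmbedding.injective hxy
        exact this ▸ hy
      exact appS_res (α i) hWV (show Sec (M.restrict (U i).ι) V from s)
    · have hb : im U ⟨j, W⟩ = ⊥ := by
        rw [← le_bot_iff]
        exact (le_inf (h.trans (im_le U ⟨i, V⟩)) (im_le U ⟨j, W⟩)).trans (disjoint_iff_inf_le.mp (hd i j hij))
      have := sec_subsingleton N _ hb
      exact Subsingleton.elim _ _
  obtain ⟨β, hβ⟩ := exists_hom_of_basis' (isBasis_im U hU) M N φ hφ
  refine ⟨β, fun i => ?_⟩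
  apply hom_ext
  intro W s
  exact hβ ⟨i, W⟩ s

end Hom

section Omega

variable {Y : Scheme.{u}} (f : X ⟶ Y)

theorem isQCoh_omega : Coh.IsQCoh (Omega.sheaf f) :=
  VarietyB.PullSec.isQCoh_pullback _ _ (PerfA.IdealModule.isQCoh_idealMod _)

/-- Differentials restrict to opens of the source. -/
theorem nonempty_omega_restrict [QuasiSeparated f] (U : X.Opens) :
    Nonempty ((Omega.sheaf f).restrict U.ι ≅ Omega.sheaf (U.ι ≫ f)) :=
  ⟨(Scheme.Modules.restrictFunctorIsoPullback U.ι).app (Omega.sheaf f) ≪≫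
    Smoothlim.ConormalRes.omegaRestrictIso (f := f) (f' := U.ι ≫ f) (j := U.ι) (l := 𝟙 Y)
      (by rw [Category.comp_id])⟩

/-- The exterior powers of the differentials restrict to opens of the source. -/
theorem nonempty_ext_restrict [QuasiSeparated f] (U : X.Opens) {r : ℕ} {L : X.Modules}
    (hL : ExtPow.IsExtPow r (Omega.sheaf f) L) {L' : U.toScheme.Modules}
    (hL' : ExtPow.IsExtPow r (Omega.sheaf (U.ι ≫ f)) L') : Nonempty (L.restrict U.ι ≅ L') := by
  obtain ⟨e⟩ := nonempty_omega_restrict f U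
  exact ExtRestr.nonempty_iso e (ExtRestr.isExtPow_restrict U hL) hL'

/-- A property of the fundamental class: the kernel and the cokernel die exactly at the smooth points. -/
def IsClass [LocallyOfFinitePresentation f] {L w : X.Modules} (cl : L ⟶ w) : Prop :=
  ∀ x : X, (IsZero ((kernel cl).presheaf.stalk x) ∧ IsZero ((cokernel cl).presheaf.stalk x)) ↔
    x ∈ f.smoothLocus

/-- Being a fundamental class, in terms of stalks. -/
theorem isClass_iff [LocallyOfFinitePresentation f] {L w : X.Modules} (cl : L ⟶ w) :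
    IsClass f cl ↔ ∀ x : X, IsIso ((PerfA.Restrict.stalkAb x).map cl) ↔ x ∈ f.smoothLocus :=
  forall_congr' fun x => by rw [← StalkIso.isIso_stalk_iff]

/-- Gluing of fundamental classes along a disjoint open cover. -/
theorem exists_class [LocallyOfFinitePresentation f] [QuasiSeparated f] {ι : Type*} (U : ι → X.Opens)
    (hU : iSup U = ⊤) (hd : ∀ i j, i ≠ j → Disjoint (U i) (U j)) (w : X.Modules) (r : ℕ)
    (H : ∀ i, ∃ (L : (U i).toScheme.Modules) (_ : ExtPow.IsExtPow r (Omega.sheaf ((U i).ι ≫ f)) L)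
      (cl : L ⟶ w.restrict (U i).ι), IsClass ((U i).ι ≫ f) cl) :
    ∃ (L : X.Modules) (_ : ExtPow.IsExtPow r (Omega.sheaf f) L) (cl : L ⟶ w), IsClass f cl := by
  obtain ⟨L, hL⟩ := H366.ExtQCoh.exists_isExtPow r (isQCoh_omega f)
  choose L' hL' cl' hcl' using H
  have e := fun i => (nonempty_ext_restrict f (U i) hL (hL' i)).some
  obtain ⟨cl, hcl⟩ := exists_hom U hU hd (M := L) (N := w) fun i => (e i).hom ≫ cl' i
  refine ⟨L, hL, cl, (isClass_iff f cl).mpr fun x => ?_⟩
  obtain ⟨i, hi⟩ : ∃ i, x ∈ U i := by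
    have : x ∈ iSup U := by rw [hU]; trivial
    exact Opens.mem_iSup.mp this
  have h1 := (StalkIso.isIso_stalk_restrict_iff (U i).ι cl ⟨x, hi⟩).symm
  have h2 : ((U i).ι ⟨x, hi⟩ : X) = x := rfl
  rw [h2] at h1
  rw [h1, hcl, Functor.map_comp]
  have h3 : IsIso ((PerfA.Restrict.stalkAb (⟨x, hi⟩ : U i)).map (e i).hom) := inferInstance
  rw [isIso_comp_left_iff, (isClass_iff _ _).mp (hcl' i) ⟨x, hi⟩, ← Scheme.Hom.preimage_smoothLocus_eq]
  rfl

end Omega

end Groth.Agent.Dual.H328.ClopenGlue
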