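import Groth.Agent.Dual.H328.RelDimDec
import Groth.Agent.Dual.H328.ClopenGlue
import Groth.Agent.Dual.H375.RestrComp
import Groth.Agent.Dual.H375.LciLocus
import Mathlib.AlgebraicGeometry.Morphisms.Immersion

/-!
# The fundamental class: reduction to an ambient scheme of constant relative dimension
-/

set_option autoImplicit false
universe u

open CategoryTheory CategoryTheory.Limits AlgebraicGeometry
attribute [local instance] HasDerivedCategory.standard

namespace Groth.Agent.Dual.H328.ClassReduce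

open Groth.Agent.Dual.H375 Groth.Agent.Dual.H328.ClopenGlue Groth.Agent.Dual.H328.RelDimDec

/-- There is a morphism from an exterior power of the differentials of `f` to `w` which is an isomorphism exactly
at the smooth points. -/
def Concl {X Y : Scheme.{u}} (f : X ⟶ Y) [LocallyOfFinitePresentation f] (w : X.Modules) (r : ℕ) : Prop :=
  ∃ (L : X.Modules) (_ : ExtPow.IsExtPow r (Omega.sheaf f) L) (cl : L ⟶ w), IsClass f cl

theorem Concl.of_iso {X Y : Scheme.{u}} {f : X ⟶ Y} [LocallyOfFinitePresentation f] {w w' : X.Modules} {r : ℕ}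
    (h : Concl f w r) (e : w ≅ w') : Concl f w' r := by
  obtain ⟨L, hL, cl, hcl⟩ := h
  refine ⟨L, hL, cl ≫ e.hom, (isClass_iff _ _).mpr fun x => ?_⟩
  rw [Functor.map_comp, isIso_comp_right_iff]
  exact (isClass_iff _ _).mp hcl x

/-- Transport along an equality of morphisms. -/
theorem Concl.congr {X Y : Scheme.{u}} {f g : X ⟶ Y} [LocallyOfFinitePresentation f]
    [LocallyOfFinitePresentation g] {w : X.Modules} {r : ℕ} (h : f = g) (H : Concl f w r) : Concl g w r := by
  subst h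
  exact H

/-- Reduction to the loci of constant relative dimension of the ambient scheme. -/
theorem concl_of_locus {X Y P : Scheme.{u}} (f : X ⟶ Y) [LocallyOfFinitePresentation f] [QuasiSeparated f]
    (i : X ⟶ P) (π : P ⟶ Y) [Smooth π] (w : X.Modules) (r : ℕ)
    (H : ∀ n : ℕ, Concl ((i ⁻¹ᵁ locus π n).ι ≫ f) (w.restrict (i ⁻¹ᵁ locus π n).ι) r) : Concl f w r := by
  refine exists_class f (fun n => i ⁻¹ᵁ locus π n) ?_ ?_ w r H
  · rw [← Scheme.Hom.preimage_iSup, iSup_locus]
    rfl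
  · intro n m hnm
    rw [disjoint_iff, eq_bot_iff]
    rintro x ⟨hn, hm⟩
    exact (hnm (eq_of_mem_locus π hn hm)).elim

/-- The case of constant relative dimension `n` of the ambient scheme (the hypotheses of the theorem on the
fundamental class, with `π` of relative dimension `n`). -/
def RelDimCase (Y : Scheme.{u}) [IsNoetherian Y] (r : ℕ) : Prop :=
  ∀ (X P : Scheme.{u}) (f : X ⟶ Y) [LocallyOfFinitePresentation f] (_ : Dual3.IsLCIMor f) (i : X ⟶ P)
    (π : P ⟶ Y) [IsImmersion i] [IsProper π] (n : ℕ) [SmoothOfRelativeDimension n π] (_ : i ≫ π = f)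
    [Dual3.IsSepFT f] (c : DEt.Compactification f) [DCoh.HasRpush c.fbar]
    (hc : DCoh.RpushPreservesQCoh c.fbar) (a : DCoh.DQCoh Y ⥤ DCoh.DQCoh c.Xbar)
    (_ : DCoh.RpushQ c.fbar hc ⊣ a) (O : DCoh.DQCoh Y)
    (_ : Nonempty (O.obj ≅ DCoh.inD Y (Coh.structureModule Y)))
    (_ : ∀ k : ℤ, k ≠ -(r : ℤ) → IsZero (DCoh.HD ((Dual3.shriekC c a).obj O) k)),
    Concl f (DCoh.HD ((Dual3.shriekC c a).obj O) (-(r : ℤ))) r

/-- The general case follows from the case of constant relative dimension. -/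
theorem concl_of_relDimCase (Y X P : Scheme.{u}) [IsNoetherian Y] (f : X ⟶ Y) [LocallyOfFinitePresentation f]
    (hf : Dual3.IsLCIMor f) (i : X ⟶ P) (π : P ⟶ Y) [IsImmersion i] [IsProper π] [Smooth π] (hfac : i ≫ π = f)
    [Dual3.IsSepFT f] (c : DEt.Compactification f) [DCoh.HasRpush c.fbar]
    (hc : DCoh.RpushPreservesQCoh c.fbar) (a : DCoh.DQCoh Y ⥤ DCoh.DQCoh c.Xbar)
    (adj : DCoh.RpushQ c.fbar hc ⊣ a)
    [∀ (U V : Scheme.{u}) (j : U ⟶ V) [IsOpenImmersion j], PreservesFiniteLimits (Scheme.Modules.restrictFunctor j)]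
    (O : DCoh.DQCoh Y) (hO : Nonempty (O.obj ≅ DCoh.inD Y (Coh.structureModule Y))) (r : ℕ)
    (hr : ∀ k : ℤ, k ≠ -(r : ℤ) → IsZero (DCoh.HD ((Dual3.shriekC c a).obj O) k)) (H : RelDimCase Y r) :
    Concl f (DCoh.HD ((Dual3.shriekC c a).obj O) (-(r : ℤ))) r := by
  refine concl_of_locus f i π _ r fun n => ?_
  have h1 : SmoothOfRelativeDimension n ((locus π n).ι ≫ π) := smoothOfRelDim_locus π n
  have h0 : IsClosedImmersion (i ⁻¹ᵁ locus π n).ι :=
    isClosedImmersion_ι _ ((isClosed_locus π n).preimage i.continuous)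
  have h2 : Dual3.IsSepFT ((i ⁻¹ᵁ locus π n).ι ≫ f) :=
    ⟨inferInstance, inferInstance, inferInstance⟩
  have h3 : DCoh.HasRpush (RestrComp.restrictComp c (i ⁻¹ᵁ locus π n).ι).fbar :=
    inferInstanceAs (DCoh.HasRpush c.fbar)
  have h4 : IsImmersion (i ∣_ locus π n) := inferInstance
  refine (H _ _ ((i ⁻¹ᵁ locus π n).ι ≫ f) (LciLocus.isLCIMor_comp _ _ hf) (i ∣_ locus π n)
    ((locus π n).ι ≫ π) n ?_ (RestrComp.restrictComp c (i ⁻¹ᵁ locus π n).ι) hc a adj O hO ?_).of_iso
    (RestrComp.hdIso c _ a O _)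
  · rw [← Category.assoc, morphismRestrict_ι, Category.assoc, hfac]
  · intro k hk
    exact ((Scheme.Modules.restrictFunctor (i ⁻¹ᵁ locus π n).ι).map_isZero (hr k hk)).of_iso
      (RestrComp.hdIso c (i ⁻¹ᵁ locus π n).ι a O k)

end Groth.Agent.Dual.H328.ClassReduce
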