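import Mathlib.RingTheory.Smooth.Local
import Mathlib.RingTheory.Smooth.Locus
import Mathlib.RingTheory.Localization.Algebra
import Mathlib.RingTheory.Localization.BaseChange
import Mathlib.RingTheory.Etale.Kaehler
import Mathlib.RingTheory.IsTensorProduct

/-!
# The Jacobian criterion at a prime, for abstract models of `I/I² → B ⊗ Ω_{R/A}`
-/

set_option autoImplicit false

universe u

open scoped TensorProduct

namespace Groth.Agent.Dual.H328.JacCrit

/-- Two injectivity statements for maps characterised by the same values on base changes. -/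
theorem injective_iff_of_isBaseChange {R K I Om X₁ Y₁ X₂ Y₂ : Type*} [CommRing R] [CommRing K]
    [Algebra R K] [AddCommGroup I] [Module R I]
    [AddCommGroup X₁] [Module R X₁] [Module K X₁] [IsScalarTower R K X₁]
    [AddCommGroup X₂] [Module R X₂] [Module K X₂] [IsScalarTower R K X₂]
    [AddCommGroup Om] [Module R Om]
    [AddCommGroup Y₁] [Module R Y₁] [Module K Y₁] [IsScalarTower R K Y₁]
    [AddCommGroup Y₂] [Module R Y₂] [Module K Y₂] [IsScalarTower R K Y₂]
    (i₁ : I →ₗ[R] X₁) (h₁ : IsBaseChange K i₁) (i₂ : I →ₗ[R] X₂) (h₂ : IsBaseChange K i₂)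
    (j₁ : Om →ₗ[R] Y₁) (k₁ : IsBaseChange K j₁) (j₂ : Om →ₗ[R] Y₂) (k₂ : IsBaseChange K j₂)
    (d : I → Om) (f₁ : X₁ →ₗ[K] Y₁) (hf₁ : ∀ a, f₁ (i₁ a) = j₁ (d a))
    (f₂ : X₂ →ₗ[K] Y₂) (hf₂ : ∀ a, f₂ (i₂ a) = j₂ (d a)) :
    Function.Injective f₁ ↔ Function.Injective f₂ := by
  let e : X₁ ≃ₗ[K] X₂ := h₁.equiv.symm.trans h₂.equiv
  let e' : Y₁ ≃ₗ[K] Y₂ := k₁.equiv.symm.trans k₂.equiv
  have he : ∀ a, e (i₁ a) = i₂ a := fun a => by
    simp [e, IsBaseChange.equiv_symm_apply, IsBaseChange.equiv_tmul]
  have he' : ∀ a, e' (j₁ a) = j₂ a := fun a => by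
    simp [e', IsBaseChange.equiv_symm_apply, IsBaseChange.equiv_tmul]
  have h : f₂ ∘ₗ e.toLinearMap = e'.toLinearMap ∘ₗ f₁ := by
    refine h₁.algHom_ext _ _ fun a => ?_
    simp only [LinearMap.comp_apply, LinearEquiv.coe_coe]
    rw [he, hf₁, hf₂, he']
  have h3 : (f₂ ∘ e) = (e' ∘ f₁) := by
    funext x
    exact LinearMap.congr_fun h x
  rw [← e'.injective.of_comp_iff f₁, ← h3]
  exact e.injective_comp f₂

open KaehlerDifferential in
/-- **(c)** The Jacobian criterion: `B` is smooth over `A` at `q` iff `δ ⊗ K` is injective, where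
`C = B ⊗ I`, `F = B ⊗ Ω_{R/A}` and `δ` is induced by the derivation. -/
theorem isSmoothAt_iff {A R B C F K : Type u} [CommRing A] [CommRing R] [CommRing B] [Algebra A R]
    [Algebra R B] [Algebra A B] [IsScalarTower A R B] [Algebra.Smooth A R]
    (hs : Function.Surjective (algebraMap R B)) (hI : (RingHom.ker (algebraMap R B)).FG)
    [AddCommGroup C] [Module R C] [Module B C] [IsScalarTower R B C]
    [AddCommGroup F] [Module R F] [Module B F] [IsScalarTower R B F]
    (γ : ↥(RingHom.ker (algebraMap R B)) →ₗ[R] C) (hγ : IsBaseChange B γ)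
    (φ : Ω[R⁄A] →ₗ[R] F) (hφ : IsBaseChange B φ) (δ : C →ₗ[B] F)
    (hδ : ∀ a, δ (γ a) = φ (KaehlerDifferential.D A R (a : R)))
    (q : Ideal B) [q.IsPrime] [Field K] [Algebra B K] (hK : RingHom.ker (algebraMap B K) = q) :
    Algebra.IsSmoothAt A q ↔ Function.Injective (δ.baseChange K) := by
  let p : Ideal R := q.comap (algebraMap R B)
  have hp : p.IsPrime := inferInstance
  let P := Localization.AtPrime p
  let S := Localization.AtPrime q
  have hT : Submonoid.map (algebraMap R B) p.primeCompl = q.primeCompl := by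
    ext b
    constructor
    · rintro ⟨a, ha, rfl⟩
      exact ha
    · intro hb
      obtain ⟨a, rfl⟩ := hs b
      exact ⟨a, hb, rfl⟩
  have hy : p.primeCompl ≤ Submonoid.comap (algebraMap R B) q.primeCompl :=
    hT.symm ▸ Submonoid.le_comap_map _
  let _ : Algebra P S := (IsLocalization.map S (algebraMap R B) hy : P →+* S).toAlgebra
  have hPS : ∀ a : R, algebraMap P S (algebraMap R P a) = algebraMap B S (algebraMap R B a) :=
    fun a => IsLocalization.map_eq hy a
  have : IsScalarTower R P S := IsScalarTower.of_algebraMap_eq fun a => by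
    rw [hPS, ← IsScalarTower.algebraMap_apply]
  have : IsScalarTower A P S := IsScalarTower.of_algebraMap_eq fun a => by
    rw [IsScalarTower.algebraMap_apply A R S, IsScalarTower.algebraMap_apply R P S,
      ← IsScalarTower.algebraMap_apply A R P]
  -- the field `K`
  let _ : Algebra R K := ((algebraMap B K).comp (algebraMap R B)).toAlgebra
  have : IsScalarTower R B K := IsScalarTower.of_algebraMap_eq fun _ => rfl
  have hKq : ∀ b : B, algebraMap B K b = 0 ↔ b ∈ q := fun b => by
    rw [← RingHom.mem_ker, hK]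
  have hu : ∀ b : q.primeCompl, IsUnit (algebraMap B K b) := fun b => by
    rw [isUnit_iff_ne_zero]
    intro h0
    exact b.2 ((hKq _).1 h0)
  let _ : Algebra S K := (IsLocalization.lift (M := q.primeCompl) hu : S →+* K).toAlgebra
  have hSK : ∀ b : B, algebraMap S K (algebraMap B S b) = algebraMap B K b :=
    fun b => IsLocalization.lift_eq hu b
  have : IsScalarTower B S K := IsScalarTower.of_algebraMap_eq fun a => (hSK a).symm
  let _ : Algebra P K := ((algebraMap S K).comp (algebraMap P S)).toAlgebra
  have : IsScalarTower P S K := IsScalarTower.of_algebraMap_eq fun _ => rfl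
  have : IsScalarTower R P K := IsScalarTower.of_algebraMap_eq fun a => by
    rw [IsScalarTower.algebraMap_apply P S K, hPS, hSK, ← IsScalarTower.algebraMap_apply]
  have h3 : IsLocalRing.maximalIdeal S ≤ RingHom.ker (algebraMap S K) := by
    rw [← Localization.AtPrime.map_eq_maximalIdeal, Ideal.map_le_iff_le_comap]
    intro b hb
    rw [Ideal.mem_comap, RingHom.mem_ker, hSK]
    exact (hKq _).2 hb
  have : Algebra.FormallySmooth R P := Algebra.FormallySmooth.of_isLocalization p.primeCompl
  have : Algebra.FormallySmooth A P := Algebra.FormallySmooth.comp A R P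
  have : Algebra.EssFiniteType R P := .of_isLocalization _ p.primeCompl
  have : Algebra.EssFiniteType A P := .comp A R P
  have : Module.Free P Ω[P⁄A] := Module.free_of_flat_of_isLocalRing
  have h1 : Function.Surjective (algebraMap P S) := by
    intro x
    obtain ⟨b, ⟨s, hsq⟩, rfl⟩ := IsLocalization.exists_mk'_eq q.primeCompl x
    obtain ⟨a, rfl⟩ := hs b
    obtain ⟨t, rfl⟩ := hs s
    exact ⟨IsLocalization.mk' P a (⟨t, hsq⟩ : p.primeCompl), IsLocalization.map_mk' hy a ⟨t, hsq⟩⟩
  have hker : RingHom.ker (algebraMap P S) = (RingHom.ker (algebraMap R B)).map (algebraMap R P) :=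
    IsLocalization.ker_map (S := P) S (algebraMap R B) hT
  have h2 : (RingHom.ker (algebraMap P S)).FG := by
    rw [hker]
    exact hI.map _
  refine (Algebra.FormallySmooth.iff_injective_cotangentComplexBaseChange (R := A) (S := S) P K
    h1 h2 h3).trans ?_
  let ι : ↥(RingHom.ker (algebraMap R B)) →ₗ[R] ↥(RingHom.ker (algebraMap P S)) :=
    RingHom.toKerIsLocalization P S (algebraMap R B) hy
  have hι : IsBaseChange P ι := by
    rw [← isLocalizedModule_iff_isBaseChange p.primeCompl]
    exact RingHom.toKerIsLocalization_isLocalizedModule S (algebraMap R B) hT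
  have hΩ : IsBaseChange P (KaehlerDifferential.map A A R P) := by
    rw [← isLocalizedModule_iff_isBaseChange p.primeCompl]
    infer_instance
  refine injective_iff_of_isBaseChange (R := R) (K := K) (Om := Ω[R⁄A]) _
    (hι.comp (TensorProduct.isBaseChange P _ K)) _
    (hγ.comp (TensorProduct.isBaseChange B _ K)) _
    (hΩ.comp (TensorProduct.isBaseChange P _ K)) _
    (hφ.comp (TensorProduct.isBaseChange B _ K))
    (fun a => KaehlerDifferential.D A R (a : R)) _ ?_ _ ?_
  · intro a
    simp only [cotangentComplexBaseChange_tmul, LinearMap.comp_apply, LinearMap.restrictScalars_apply,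
      TensorProduct.mk_apply, kerToTensor_apply, one_smul, KaehlerDifferential.map_D]
    rfl
  · intro a
    simp [hδ]

end Groth.Agent.Dual.H328.JacCrit
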