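import Groth.Agent.Dual.H366.ConSec
import Groth.Agent.Dual.H328.JacCrit
import Mathlib.AlgebraicGeometry.Morphisms.Smooth

/-!
# The Jacobian criterion for a closed immersion into a smooth scheme, on charts

`mem_smoothLocus_iff`: `s : X → W` a closed immersion, `w : W → Y` smooth: `x` is a smooth point of `s ≫ w` iff
`C_{X/W} → s^* Ω_{W/Y}` is injective on the fibres at `x` (in terms of sections over the preimage of a chart).
-/

set_option autoImplicit false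
universe u
open CategoryTheory CategoryTheory.Limits AlgebraicGeometry Opposite TopologicalSpace
open scoped TensorProduct

namespace Groth.Agent.Dual.H328.SmoothPt

open Groth.Agent.PerfA.IdealModule Groth.Agent.VarietyB Groth.Agent.Sga67.Sec
open Groth.Agent.CurvesB.OmegaDer (d d_mul d_res der der_apply algX modO isScalarTower bijective_lift)
open Groth.Agent.Dual.H366.Conormal Groth.Agent.Dual.H366.ConSec

variable {X W Y : Scheme.{u}}

theorem ker_evaluation {U : X.Opens} (hU : IsAffineOpen U) (x : X) (hx : x ∈ U) :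
    RingHom.ker (X.evaluation U x hx).hom = (hU.primeIdealOf ⟨x, hx⟩).asIdeal := by
  rw [hU.primeIdealOf_eq_map_closedPoint]
  ext a
  rw [RingHom.mem_ker]
  change IsLocalRing.residue _ _ = 0 ↔ _
  rw [IsLocalRing.residue_eq_zero_iff]
  rfl

/-- Sections of the ideal sheaf are the kernel of the restriction to `X`. -/
noncomputable def kerEquiv (s : X ⟶ W) [QuasiCompact s] (V : W.Opens) :
    Sec (ClSub.idealMod s.ker) V ≃ₗ[Γ(W, V)] RingHom.ker (s.app V).hom :=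
  LinearEquiv.ofBijective ((valS s V).codRestrict (Submodule.restrictScalars Γ(W, V) (RingHom.ker (s.app V).hom))
    (fun c => (app_eq_zero_iffS s V _).mpr ⟨c, rfl⟩))
    ⟨fun a b h => valS_injective s V (congrArg Subtype.val h), fun ⟨a, ha⟩ => by
      obtain ⟨c, hc⟩ := (app_eq_zero_iffS s V a).mp ha
      exact ⟨c, Subtype.ext hc⟩⟩

theorem val_kerEquiv (s : X ⟶ W) [QuasiCompact s] (V : W.Opens) (c : Sec (ClSub.idealMod s.ker) V) :
    (kerEquiv s V c : Γ(W, V)) = valS s V c := rfl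

theorem valS_kerEquiv_symm (s : X ⟶ W) [QuasiCompact s] (V : W.Opens) (a : RingHom.ker (s.app V).hom) :
    valS s V ((kerEquiv s V).symm a) = a := by
  rw [← val_kerEquiv, LinearEquiv.apply_symm_apply]

/-- **Jacobian criterion** on a chart. -/
theorem mem_smoothLocus_iff (s : X ⟶ W) [IsClosedImmersion s] (w : W ⟶ Y) [Smooth w]
    [QuasiCompact (pullback.diagonal w)] [QuasiCompact (pullback.diagonal (s ≫ w))]
    [LocallyOfFinitePresentation (s ≫ w)]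
    (c : Ch w) (x : X) (hx : x ∈ s ⁻¹ᵁ c.V) :
    letI := (X.evaluation (s ⁻¹ᵁ c.V) x hx).hom.toAlgebra
    x ∈ (s ≫ w).smoothLocus ↔
      Function.Injective ((appS (dMap s w) (s ⁻¹ᵁ c.V)).baseChange (X.residueField x)) := by
  let algK := (X.evaluation (s ⁻¹ᵁ c.V) x hx).hom.toAlgebra
  let hU : IsAffineOpen (s ⁻¹ᵁ c.V) := c.hV.preimage s
  let algAR : Algebra Γ(Y, c.T) Γ(W, c.V) := algX w c.e
  let algRB : Algebra Γ(W, c.V) Γ(X, s ⁻¹ᵁ c.V) := algS s c.V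
  let algAB : Algebra Γ(Y, c.T) Γ(X, s ⁻¹ᵁ c.V) :=
    ((s ≫ w).appLE c.T (s ⁻¹ᵁ c.V) (s.preimage_mono c.e)).hom.toAlgebra
  have tw : IsScalarTower Γ(Y, c.T) Γ(W, c.V) Γ(X, s ⁻¹ᵁ c.V) := by
    refine IsScalarTower.of_algebraMap_eq' ?_
    change ((s ≫ w).appLE c.T (s ⁻¹ᵁ c.V) (s.preimage_mono c.e)).hom =
      (w.appLE c.T c.V c.e ≫ s.appLE c.V (s ⁻¹ᵁ c.V) le_rfl).hom
    rw [Scheme.Hom.appLE_comp_appLE]
  have happ : s.appLE c.V (s ⁻¹ᵁ c.V) le_rfl = s.app c.V := s.appLE_eq_app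
  have hsm : Algebra.Smooth Γ(Y, c.T) Γ(W, c.V) := w.smooth_appLE c.hT c.hV c.e
  have hs : Function.Surjective (algebraMap Γ(W, c.V) Γ(X, s ⁻¹ᵁ c.V)) := by
    change Function.Surjective (s.appLE c.V (s ⁻¹ᵁ c.V) le_rfl).hom
    rw [happ]
    exact s.app_surjective c.V c.hV
  have hI : (RingHom.ker (algebraMap Γ(W, c.V) Γ(X, s ⁻¹ᵁ c.V))).FG := by
    have h1 : Algebra.FinitePresentation Γ(Y, c.T) Γ(X, s ⁻¹ᵁ c.V) :=
      (s ≫ w).finitePresentation_appLE c.hT hU (s.preimage_mono c.e)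
    have h2 : Algebra.FinitePresentation Γ(Y, c.T) Γ(W, c.V) := inferInstance
    exact Algebra.FinitePresentation.ker_fG_of_surjective
      (IsScalarTower.toAlgHom Γ(Y, c.T) Γ(W, c.V) Γ(X, s ⁻¹ᵁ c.V)) hs
  -- the modules
  let mC : Module Γ(W, c.V) (Sec (Omega.conormal s) (s ⁻¹ᵁ c.V)) := modS s (Omega.conormal s) c.V
  have tC : IsScalarTower Γ(W, c.V) Γ(X, s ⁻¹ᵁ c.V) (Sec (Omega.conormal s) (s ⁻¹ᵁ c.V)) :=
    tower s (Omega.conormal s) c.V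
  let mF : Module Γ(W, c.V) (Sec ((Scheme.Modules.pullback s).obj (Omega.sheaf w)) (s ⁻¹ᵁ c.V)) :=
    modS s ((Scheme.Modules.pullback s).obj (Omega.sheaf w)) c.V
  have tF : IsScalarTower Γ(W, c.V) Γ(X, s ⁻¹ᵁ c.V)
      (Sec ((Scheme.Modules.pullback s).obj (Omega.sheaf w)) (s ⁻¹ᵁ c.V)) :=
    tower s ((Scheme.Modules.pullback s).obj (Omega.sheaf w)) c.V
  have hker : RingHom.ker (algebraMap Γ(W, c.V) Γ(X, s ⁻¹ᵁ c.V)) = RingHom.ker (s.app c.V).hom := by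
    change RingHom.ker (s.appLE c.V (s ⁻¹ᵁ c.V) le_rfl).hom = _
    rw [happ]
  let eI : RingHom.ker (algebraMap Γ(W, c.V) Γ(X, s ⁻¹ᵁ c.V)) ≃ₗ[Γ(W, c.V)] Sec (ClSub.idealMod s.ker) c.V :=
    (LinearEquiv.ofEq _ _ hker).trans (kerEquiv s c.V).symm
  have heI : ∀ a, valS s c.V (eI a) = (a : Γ(W, c.V)) := fun a => valS_kerEquiv_symm s c.V _
  let γ : RingHom.ker (algebraMap Γ(W, c.V) Γ(X, s ⁻¹ᵁ c.V)) →ₗ[Γ(W, c.V)] Sec (Omega.conormal s) (s ⁻¹ᵁ c.V) :=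
    secSₗ s (ClSub.idealMod s.ker) c.V ∘ₗ eI.toLinearMap
  have hγ : IsBaseChange Γ(X, s ⁻¹ᵁ c.V) γ :=
    IsBaseChange.comp_equiv eI _ (isBaseChange_secS s (ClSub.idealMod s.ker) (isQCoh_idealMod _) c.hV hU)
  let mA : Module Γ(Y, c.T) Γ(Omega.sheaf w, c.V) := modO w c.e
  have tA := isScalarTower w c.e
  let eΩ : Ω[Γ(W, c.V)⁄Γ(Y, c.T)] ≃ₗ[Γ(W, c.V)] Sec (Omega.sheaf w) c.V :=
    LinearEquiv.ofBijective _ (bijective_lift w c.e c.hT c.hV)
  have heΩ : ∀ a, eΩ (KaehlerDifferential.D _ _ a) = dS w c.V a := fun a => by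
    change (der w c.e).liftKaehlerDifferential _ = _
    rw [Derivation.liftKaehlerDifferential_comp_D, der_apply]
    rfl
  let φ : Ω[Γ(W, c.V)⁄Γ(Y, c.T)] →ₗ[Γ(W, c.V)] Sec ((Scheme.Modules.pullback s).obj (Omega.sheaf w)) (s ⁻¹ᵁ c.V) :=
    secSₗ s (Omega.sheaf w) c.V ∘ₗ eΩ.toLinearMap
  have hφ : IsBaseChange Γ(X, s ⁻¹ᵁ c.V) φ :=
    IsBaseChange.comp_equiv eΩ _ (isBaseChange_secS s (Omega.sheaf w) (isQCoh_omega w) c.hV hU)
  have hδ : ∀ a, appS (dMap s w) (s ⁻¹ᵁ c.V) (γ a) = φ (KaehlerDifferential.D _ _ (a : Γ(W, c.V))) := by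
    intro a
    change appS (dMap s w) (s ⁻¹ᵁ c.V) (cS s c.V (eI a)) =
      secS s (Omega.sheaf w) c.V (eΩ (KaehlerDifferential.D _ _ (a : Γ(W, c.V))))
    rw [dMap_cS, heI, heΩ]
  rw [Scheme.Hom.mem_smoothLocus,
    formallySmooth_stalkMap_iff c.T c.hT (s ⁻¹ᵁ c.V) hU (s.preimage_mono c.e) hx]
  exact JacCrit.isSmoothAt_iff hs hI γ hγ φ hφ (appS (dMap s w) (s ⁻¹ᵁ c.V)) hδ
    (hU.primeIdealOf ⟨x, hx⟩).asIdeal (ker_evaluation hU x hx)

end Groth.Agent.Dual.H328.SmoothPt
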