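import Groth.Agent.Dual.H328.WUniv
import Groth.Agent.Dual.H328.ClassReduce
import Groth.Agent.Dual.H366.LciImm
import Groth.Agent.Dual.H366.ClassMain
import Groth.Agent.Dual.H339.OmegaRank

/-!
# The fundamental class of an lci morphism: assembly from S3635 and the wedge package
-/

set_option autoImplicit false
universe u
open CategoryTheory CategoryTheory.Limits AlgebraicGeometry
attribute [local instance] HasDerivedCategory.standard

namespace Groth.Agent.Dual.H328.Assembly

open Groth.Agent.Ega1.ADualUniv Groth.Agent.LoccohB.AdStruct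
open Groth.Agent.Dual.H328.WUniv Groth.Agent.Dual.H328.ClopenGlue
open Groth.Agent.Dual.H328.ClassReduce Groth.Agent.Sga67.KosImm

/-- The case of constant relative dimension. -/
theorem relDimCase (H : PropS3635.{u}) (Y : Scheme.{u}) [IsNoetherian Y] (r : ℕ) :
    RelDimCase Y r := by
  intro X P f _ hf i π _ _ n _ hfac _ c _ hc a adj O hO hr
  obtain ⟨LO, hLO⟩ := H366.ExtQCoh.exists_isExtPow r (isQCoh_omega f)
  by_cases hX : Nonempty X
  swap
  · exact ⟨LO, hLO, 0, fun x => (hX ⟨x⟩).elim⟩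
  obtain ⟨x₀⟩ := hX
  let U := i.coborderRange
  let s : X ⟶ U := i.liftCoborder
  have hs : s ≫ U.ι = i := i.liftCoborder_ι
  have hf' : s ≫ U.ι ≫ π = f := by rw [← Category.assoc, hs, hfac]
  have hP : IsNoetherian P := isNoetherian_of_finiteType π
  have hsm : SmoothOfRelativeDimension n (U.ι ≫ π) :=
    IsZariskiLocalAtSource.comp (P := @SmoothOfRelativeDimension n) inferInstance U.ι
  have hsm' : Smooth (U.ι ≫ π) := SmoothOfRelativeDimension.smooth n _
  have hqc : QuasiCompact (U.ι ≫ π) := inferInstance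
  have hW : IsNoetherian U.toScheme := isNoetherian_of_finiteType (U.ι ≫ π)
  have : DCoh.HasRpush s := Dcoh.DerSch.hasRpush s
  have : DCoh.HasLpull s := S0959.result s
  have hreg : Mor2.IsRegularClosedImmersion s :=
    H366.LciImm.isRegularClosedImmersion s (U.ι ≫ π) (by rw [hf']; exact hf)
  obtain ⟨D, hD⟩ := H366.ExtQCoh.exists_isExtPow n (isQCoh_omega (U.ι ≫ π))
  have hΩ := H339.OmegaRank.isFinLocFreeOfRank_omega n (U.ι ≫ π)
  have hDi : PicF.IsInvertible D := isInvertible_extPow hΩ hD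
  have h := univ_W H π n U s hf' c hc a adj O hO D hD
  obtain ⟨c₀, hx₀, -⟩ := exists_chart hreg x₀ ⊤ trivial
  have hm := length_add s n hDi r h hr c₀ x₀ hx₀
  have hN := isFinLocFreeOfRank_conormal s n hDi hreg r c₀.l.length h hr hm
  obtain ⟨LC, hLC⟩ := H366.ExtQCoh.exists_isExtPow c₀.l.length (H366.ConSec.isQCoh_conormal s)
  have e := nonempty_tensor_iso s n hDi hreg r c₀.l.length hm hN hLC h
  subst hf'
  obtain ⟨cl, hcl⟩ := H366.ClassMain.class_main s (U.ι ≫ π) ((add_comm _ _).trans hm) hN hΩ hLO hLC hD e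
  exact ⟨LO, hLO, cl, hcl⟩

/-- **The fundamental class of an lci morphism** from S3635. -/
theorem concl (H : PropS3635.{u}) (Y X P : Scheme.{u}) [IsNoetherian Y] (f : X ⟶ Y)
    [LocallyOfFinitePresentation f] (hf : Dual3.IsLCIMor f) (i : X ⟶ P) (π : P ⟶ Y) [IsImmersion i] [IsProper π]
    [Smooth π] (hfac : i ≫ π = f) [Dual3.IsSepFT f] (c : DEt.Compactification f) [DCoh.HasRpush c.fbar]
    (hc : DCoh.RpushPreservesQCoh c.fbar) (a : DCoh.DQCoh Y ⥤ DCoh.DQCoh c.Xbar)
    (adj : DCoh.RpushQ c.fbar hc ⊣ a)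
    [∀ (U V : Scheme.{u}) (j : U ⟶ V) [IsOpenImmersion j], PreservesFiniteLimits (Scheme.Modules.restrictFunctor j)]
    (O : DCoh.DQCoh Y) (hO : Nonempty (O.obj ≅ DCoh.inD Y (Coh.structureModule Y))) (r : ℕ)
    (hr : ∀ k : ℤ, k ≠ -(r : ℤ) → IsZero (DCoh.HD ((Dual3.shriekC c a).obj O) k)) :
    Concl f (DCoh.HD ((Dual3.shriekC c a).obj O) (-(r : ℤ))) r :=
  concl_of_relDimCase Y X P f hf i π hfac c hc a adj O hO r hr (relDimCase H Y r)

end Groth.Agent.Dual.H328.Assembly
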