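import Mathlib.LinearAlgebra.Determinant
import Mathlib.LinearAlgebra.TensorProduct.Basis
import Mathlib.LinearAlgebra.Dimension.Constructions
import Mathlib.LinearAlgebra.FreeModule.StrongRankCondition
import Mathlib.LinearAlgebra.Basis.VectorSpace
import Mathlib.LinearAlgebra.Matrix.ToLin
import Mathlib.RingTheory.TensorProduct.Free

/-!
# Injectivity on a fibre and complementary determinants

`δ : C → F` a map of free modules of ranks `m ≤ n = r + m` over `B`, `B → K` a ring map to a field.
* `injective_baseChange_iff`: `δ ⊗ K` is injective iff there are `x_1, …, x_r ∈ F` with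
  `det (x, δ c) ≠ 0` in `K`.
* `exists_basis_of_isUnit`: if `det (x, δ c)` is a unit, then `(x, δ c)` is a basis of `F` and the images of
  the `x_i` form a basis of the cokernel `W`.
-/

set_option autoImplicit false

open scoped TensorProduct

namespace Groth.Agent.Dual.H328.DetCrit

open Module

section Append

variable {K V : Type*} [CommRing K] [AddCommGroup V] [Module K V]

theorem append_comp {α : Type*} {r m n : ℕ} (h : r + m = n) (x : Fin r → α) (y : Fin m → α) :
    Fin.append x y ∘ Fin.cast h.symm = Sum.elim x y ∘ (finSumFinEquiv.trans (finCongr h)).symm := by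
  funext i
  obtain ⟨j, rfl⟩ := (finSumFinEquiv.trans (finCongr h)).surjective i
  rw [Function.comp_apply, Function.comp_apply, Equiv.symm_apply_apply]
  rcases j with j | j <;> simp

theorem linearIndependent_append_iff {r m n : ℕ} (h : r + m = n) (x : Fin r → V) (y : Fin m → V) :
    LinearIndependent K (Fin.append x y ∘ Fin.cast h.symm) ↔ LinearIndependent K (Sum.elim x y) := by
  rw [append_comp h]
  exact linearIndependent_equiv _

end Append

section Field

variable {K V : Type*} [Field K] [AddCommGroup V] [Module K V]

/-- Extension of an independent family to a basis by members of a given spanning family. -/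
theorem exists_extend {r m n : ℕ} (h : r + m = n) (hn : Module.finrank K V = n)
    [Module.Finite K V] {ι : Type*} [Finite ι]
    (e : ι → V) (he : Submodule.span K (Set.range e) = ⊤) (y : Fin m → V) (hy : LinearIndependent K y) :
    ∃ a : Fin r → ι, LinearIndependent K (Sum.elim (e ∘ a) y) := by
  let S : Submodule K V := Submodule.span K (Set.range y)
  have hS : Module.finrank K S = m := by
    rw [finrank_span_eq_card hy, Fintype.card_fin]
  have hQ : Module.finrank K (V ⧸ S) = r := by
    have := Submodule.finrank_quotient_add_finrank S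
    omega
  obtain ⟨κ, a, ha, hspan, hli⟩ := exists_linearIndependent' K (S.mkQ ∘ e)
  have htop : Submodule.span K (Set.range (S.mkQ ∘ e)) = ⊤ := by
    rw [Set.range_comp, ← Submodule.map_span, he, Submodule.map_top, Submodule.range_mkQ]
  have : Finite κ := Finite.of_injective a ha
  have := Fintype.ofFinite κ
  have hcard : Fintype.card κ = r := by
    rw [← hQ]
    have b : Basis κ K (V ⧸ S) := Basis.mk hli (by rw [hspan, htop])
    rw [Module.finrank_eq_card_basis b]
  let u : Fin r ≃ κ := (Fintype.equivFinOfCardEq hcard).symm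
  refine ⟨a ∘ u, ?_⟩
  have h1 : LinearIndependent K (fun i => (⟨y i, Submodule.subset_span ⟨i, rfl⟩⟩ : S)) :=
    LinearIndependent.of_comp S.subtype hy
  have h2 : LinearIndependent K (Submodule.Quotient.mk (p := S) ∘ (e ∘ a ∘ u)) :=
    (linearIndependent_equiv u).2 hli
  have h3 := LinearIndependent.sumElim_of_quotient h1 (e ∘ a ∘ u) h2
  have h4 := (linearIndependent_equiv (Equiv.sumComm (Fin r) (Fin m))).2 h3
  convert! h4 using 1
  funext i
  rcases i with i | i <;> rfl

end Field

section BaseChange

variable {B K C F : Type*} [CommRing B] [Field K] [Algebra B K] [AddCommGroup C] [Module B C]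
  [AddCommGroup F] [Module B F] {m n r : ℕ}

theorem det_baseChange (e : Basis (Fin n) B F) (v : Fin n → F) :
    (e.baseChange K).det (fun i => (1 : K) ⊗ₜ[B] v i) = algebraMap B K (e.det v) := by
  rw [Basis.det_apply, Basis.det_apply, RingHom.map_det]
  congr 1
  ext i j
  rw [Basis.toMatrix_apply, RingHom.mapMatrix_apply, Matrix.map_apply, Basis.toMatrix_apply,
    Algebra.algebraMap_eq_smul_one]
  simp

variable (c : Basis (Fin m) B C) (e : Basis (Fin n) B F) (δ : C →ₗ[B] F)

include c in
/-- `δ ⊗ K` is injective iff the `δ c_j` are independent over `K`. -/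
theorem injective_baseChange_iff_linearIndependent :
    Function.Injective (δ.baseChange K) ↔
      LinearIndependent K (fun j => (1 : K) ⊗ₜ[B] δ (c j)) := by
  have h1 : (fun j => (1 : K) ⊗ₜ[B] δ (c j)) = (δ.baseChange K) ∘ (c.baseChange K) := by
    funext j
    simp
  rw [h1]
  constructor
  · intro hinj
    exact (c.baseChange K).linearIndependent.map' _ (LinearMap.ker_eq_bot.2 hinj)
  · intro hli
    rw [← LinearMap.ker_eq_bot]
    rw [LinearMap.ker_eq_bot']
    intro x hx
    rw [← (c.baseChange K).sum_repr x, map_sum] at hx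
    simp only [map_smul] at hx
    have h2 := Fintype.linearIndependent_iff.1 hli _ hx
    rw [← (c.baseChange K).sum_repr x]
    refine Finset.sum_eq_zero fun i _ => ?_
    rw [h2 i, zero_smul]

/-- **(b1)** `δ ⊗ K` is injective iff some complementary determinant is non-zero in `K`. -/
theorem injective_baseChange_iff (h : r + m = n) :
    Function.Injective (δ.baseChange K) ↔
      ∃ x : Fin r → F, algebraMap B K (e.det (Fin.append x (δ ∘ c) ∘ Fin.cast h.symm)) ≠ 0 := by
  have hfr : Module.finrank K (K ⊗[B] F) = n := by
    rw [Module.finrank_eq_card_basis (e.baseChange K), Fintype.card_fin]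
  have : Module.Finite K (K ⊗[B] F) := Module.Finite.of_basis (e.baseChange K)
  have key : ∀ x : Fin r → F,
      algebraMap B K (e.det (Fin.append x (δ ∘ c) ∘ Fin.cast h.symm)) ≠ 0 ↔
        LinearIndependent K (Sum.elim (fun i => (1 : K) ⊗ₜ[B] x i)
          (fun j => (1 : K) ⊗ₜ[B] δ (c j))) := by
    intro x
    rw [← det_baseChange (K := K) e, ← isUnit_iff_ne_zero, ← Module.Basis.is_basis_iff_det,
      ← linearIndependent_append_iff h]
    have h1 : (fun i => (1 : K) ⊗ₜ[B] (Fin.append x (δ ∘ c) ∘ Fin.cast h.symm) i) =
        Fin.append (fun i => (1 : K) ⊗ₜ[B] x i) (fun j => (1 : K) ⊗ₜ[B] δ (c j)) ∘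
          Fin.cast h.symm := by
      rw [append_comp h, append_comp h]
      funext i
      obtain ⟨j, rfl⟩ := (finSumFinEquiv.trans (finCongr h)).surjective i
      simp only [Function.comp_apply, Equiv.symm_apply_apply]
      rcases j with j | j <;> rfl
    rw [h1]
    constructor
    · exact fun h => h.1
    · intro h2
      refine ⟨h2, ?_⟩
      exact h2.span_eq_top_of_card_eq_finrank' (by rw [hfr, Fintype.card_fin])
  rw [injective_baseChange_iff_linearIndependent c δ]
  constructor
  · intro hy
    obtain ⟨a, ha⟩ := exists_extend h hfr (e.baseChange K) (e.baseChange K).span_eq _ hy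
    refine ⟨fun i => e (a i), (key _).2 ?_⟩
    convert! ha using 2
    funext i
    simp
  · rintro ⟨x, hx⟩
    have := (key x).1 hx
    exact this.comp Sum.inr Sum.inr_injective

end BaseChange

section Unit

variable {B C F W : Type*} [CommRing B] [AddCommGroup C] [Module B C]
  [AddCommGroup F] [Module B F] [AddCommGroup W] [Module B W] {m n r : ℕ}

/-- **(b2)** -/
theorem exists_basis_of_isUnit (c : Basis (Fin m) B C) (e : Basis (Fin n) B F) (δ : C →ₗ[B] F)
    (p : F →ₗ[B] W) (hp : Function.Surjective p) (hex : LinearMap.ker p = LinearMap.range δ)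
    (h : r + m = n) (x : Fin r → F)
    (hu : IsUnit (e.det (Fin.append x (δ ∘ c) ∘ Fin.cast h.symm))) :
    (LinearIndependent B (p ∘ x) ∧ ⊤ ≤ Submodule.span B (Set.range (p ∘ x))) ∧
      (LinearIndependent B (Fin.append x (δ ∘ c)) ∧
        ⊤ ≤ Submodule.span B (Set.range (Fin.append x (δ ∘ c)))) := by
  subst h
  simp only [Fin.cast_refl, Function.comp_id] at hu
  have hu' : IsUnit (e.det (Fin.append x (δ ∘ c))) := hu
  obtain ⟨hli, hspan⟩ := (Module.Basis.is_basis_iff_det e).2 hu'
  refine ⟨⟨?_, ?_⟩, hli, hspan.ge⟩
  · rw [Fintype.linearIndependent_iff]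
    intro g hg i
    have h1 : p (∑ i, g i • x i) = 0 := by
      rw [map_sum, ← hg]
      simp
    have h2 : ∑ i, g i • x i ∈ LinearMap.range δ := by
      rw [← hex]; exact h1
    obtain ⟨z, hz⟩ := h2
    rw [← c.sum_repr z, map_sum] at hz
    have h3 := Fintype.linearIndependent_iff.1 hli (Fin.append g (fun j => - c.repr z j)) (by
      rw [Fin.sum_univ_add]
      simp only [Fin.append_left, Fin.append_right, Function.comp_apply, neg_smul,
        Finset.sum_neg_distrib]
      rw [← hz]
      simp) (Fin.castAdd m i)
    rwa [Fin.append_left] at h3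
  · have h1 : Submodule.span B (Set.range (p ∘ Fin.append x (δ ∘ c))) = ⊤ := by
      rw [Set.range_comp, ← Submodule.map_span, hspan, Submodule.map_top, LinearMap.range_eq_top]
      exact hp
    rw [← h1, Submodule.span_le]
    rintro _ ⟨i, rfl⟩
    refine Fin.addCases (fun i => ?_) (fun j => ?_) i
    · rw [Function.comp_apply, Fin.append_left]
      exact Submodule.subset_span ⟨i, rfl⟩
    · rw [Function.comp_apply, Fin.append_right]
      have : p ((δ ∘ c) j) = 0 := by
        have h2 : (δ ∘ c) j ∈ LinearMap.ker p := by
          rw [hex]; exact ⟨c j, rfl⟩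
        exact h2
      rw [this]
      exact Submodule.zero_mem _

end Unit

end Groth.Agent.Dual.H328.DetCrit
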