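import Groth.Agent.PerfC.PullKFlat
import Groth.Agent.PerfC.RelFlatLpull

/-!
# `Lg^*` of a flat module in degree zero
-/

set_option autoImplicit false
universe u
open CategoryTheory CategoryTheory.Limits AlgebraicGeometry
attribute [local instance] HasDerivedCategory.standard

namespace Groth.Agent.Dual.H328.LpullSingle

variable {X Y : Scheme.{u}}

/-- `Lg^* F ≅ g^* F` for `F` flat. -/
theorem nonempty_lpull_inD (g : Y ⟶ X) [DCoh.HasLpull g] (F : X.Modules) (hF : FlatMod.IsFlat F) :
    Nonempty ((DCoh.Lpull g).obj (DCoh.inD X F) ≅ DCoh.inD Y ((Scheme.Modules.pullback g).obj F)) := by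
  let S := (HomologicalComplex.single X.Modules (ComplexShape.up ℤ) 0).obj F
  have hS0 : ∀ i : ℤ, 0 < i → IsZero (S.X i) := fun i hi =>
    HomologicalComplex.isZero_single_obj_X (ComplexShape.up ℤ) 0 F i hi.ne'
  have hSf : ∀ i : ℤ, FlatMod.IsFlat (S.X i) := by
    intro i
    by_cases hi : i = 0
    · subst hi
      exact Dcoh.FlatRes.isFlat_of_iso (HomologicalComplex.singleObjXSelf (ComplexShape.up ℤ) 0 F).symm hF
    · exact Dcoh.FlatRes.isFlat_of_isZero (HomologicalComplex.isZero_single_obj_X (ComplexShape.up ℤ) 0 F i hi)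
  have e1 := PerfC.RelFlatLpull.lpullIso (PerfC.PullKFlat.pullData g) S 0 hS0 hSf
  have e2 : ((Scheme.Modules.pullback g).mapHomologicalComplex (ComplexShape.up ℤ)).obj S ≅
      (HomologicalComplex.single Y.Modules (ComplexShape.up ℤ) 0).obj ((Scheme.Modules.pullback g).obj F) :=
    (HomologicalComplex.singleMapHomologicalComplex (Scheme.Modules.pullback g) (ComplexShape.up ℤ) 0).app F
  exact ⟨(DCoh.Lpull g).mapIso ((DerivedCategory.singleFunctorIsoCompQ X.Modules 0).app F) ≪≫ e1 ≪≫
    DerivedCategory.Q.mapIso e2 ≪≫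
    ((DerivedCategory.singleFunctorIsoCompQ Y.Modules 0).app ((Scheme.Modules.pullback g).obj F)).symm⟩

end Groth.Agent.Dual.H328.LpullSingle
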