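import Groth.Agent.Ega2.GeoRelDim
import Mathlib.AlgebraicGeometry.Morphisms.Proper

/-!
# Decomposition of a smooth morphism according to its relative dimension

For a smooth morphism `π : P ⟶ Y` the loci `locus π n ⊆ P` where `π` has relative dimension `n` are open, pairwise
disjoint and cover `P`; in particular they are closed.
-/

set_option autoImplicit false
universe u

open CategoryTheory CategoryTheory.Limits AlgebraicGeometry

namespace Groth.Agent.Dual.H328.RelDimDec

open Groth.Agent.Ega2.GeoRelDim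

variable {P Y : Scheme.{u}} (π : P ⟶ Y)

/-- Precomposition with an open immersion preserves the relative dimension. -/
theorem smoothOfRelDim_comp {W : Scheme.{u}} (j : W ⟶ P) [IsOpenImmersion j] (n : ℕ)
    (h : SmoothOfRelativeDimension n π) : SmoothOfRelativeDimension n (j ≫ π) := by
  have h1 : SmoothOfRelativeDimension (0 + n) (j ≫ π) := inferInstance
  rwa [Nat.zero_add] at h1

/-- The open subset of `P` where `π` has relative dimension `n`. -/
def locus (n : ℕ) : P.Opens :=
  ⨆ V : {V : P.Opens // SmoothOfRelativeDimension n (V.ι ≫ π)}, V.1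

theorem le_locus {n : ℕ} {V : P.Opens} (h : SmoothOfRelativeDimension n (V.ι ≫ π)) : V ≤ locus π n :=
  le_iSup (fun V : {V : P.Opens // SmoothOfRelativeDimension n (V.ι ≫ π)} => V.1) ⟨V, h⟩

theorem mem_locus_iff {n : ℕ} {x : P} :
    x ∈ locus π n ↔ ∃ V : P.Opens, x ∈ V ∧ SmoothOfRelativeDimension n (V.ι ≫ π) := by
  unfold locus
  rw [TopologicalSpace.Opens.mem_iSup]
  constructor
  · rintro ⟨⟨V, hV⟩, hx⟩
    exact ⟨V, hx, hV⟩
  · rintro ⟨V, hx, hV⟩
    exact ⟨⟨V, hV⟩, hx⟩

/-- The map `π` has relative dimension `n` on `locus π n`. -/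
theorem smoothOfRelDim_locus (n : ℕ) : SmoothOfRelativeDimension n ((locus π n).ι ≫ π) := by
  let U : {V : P.Opens // SmoothOfRelativeDimension n (V.ι ≫ π)} → (locus π n).toScheme.Opens :=
    fun V => (locus π n).ι ⁻¹ᵁ V.1
  have hU : iSup U = ⊤ := by
    rw [eq_top_iff]
    rintro x -
    obtain ⟨V, hx, hV⟩ := (mem_locus_iff π).mp x.2
    exact TopologicalSpace.Opens.mem_iSup.mpr ⟨⟨V, hV⟩, hx⟩
  refine IsZariskiLocalAtSource.of_iSup_eq_top (P := @SmoothOfRelativeDimension n) U hU fun V => ?_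
  have hr : Set.range ((U V).ι ≫ (locus π n).ι) ⊆ Set.range V.1.ι := by
    rintro - ⟨y, rfl⟩
    rw [Scheme.Opens.range_ι]
    exact y.2
  have h1 : IsOpenImmersion.lift V.1.ι ((U V).ι ≫ (locus π n).ι) hr ≫ V.1.ι =
      (U V).ι ≫ (locus π n).ι := IsOpenImmersion.lift_fac _ _ _
  have h2 : IsOpenImmersion (IsOpenImmersion.lift V.1.ι ((U V).ι ≫ (locus π n).ι) hr) := by
    have : IsOpenImmersion (IsOpenImmersion.lift V.1.ι ((U V).ι ≫ (locus π n).ι) hr ≫ V.1.ι) := by
      rw [h1]
      infer_instance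
    exact IsOpenImmersion.of_comp _ V.1.ι
  have h3 := smoothOfRelDim_comp (V.1.ι ≫ π)
    (IsOpenImmersion.lift V.1.ι ((U V).ι ≫ (locus π n).ι) hr) n V.2
  rwa [← Category.assoc, h1, Category.assoc] at h3

/-- A point lies in one locus only. -/
theorem eq_of_mem_locus {n m : ℕ} {x : P} (hn : x ∈ locus π n) (hm : x ∈ locus π m) : n = m := by
  obtain ⟨V, hV, h1⟩ := (mem_locus_iff π).mp hn
  obtain ⟨W, hW, h2⟩ := (mem_locus_iff π).mp hm
  have h3 : SmoothOfRelativeDimension n ((V ⊓ W).ι ≫ π) := by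
    have := smoothOfRelDim_comp (V.ι ≫ π) (P.homOfLE (inf_le_left : V ⊓ W ≤ V)) n h1
    rwa [← Category.assoc, Scheme.homOfLE_ι] at this
  have h4 : SmoothOfRelativeDimension m ((V ⊓ W).ι ≫ π) := by
    have := smoothOfRelDim_comp (W.ι ≫ π) (P.homOfLE (inf_le_right : V ⊓ W ≤ W)) m h2
    rwa [← Category.assoc, Scheme.homOfLE_ι] at this
  exact relDim_unique _ n m h3 h4 ⟨x, hV, hW⟩

theorem disjoint_locus {n m : ℕ} (h : n ≠ m) : Disjoint (locus π n) (locus π m) := by
  rw [disjoint_iff, eq_bot_iff]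
  rintro x ⟨hn, hm⟩
  exact (h (eq_of_mem_locus π hn hm)).elim

theorem pairwise_disjoint : Pairwise (Function.onFun Disjoint (locus π)) :=
  fun _ _ h => disjoint_locus π h

theorem exists_mem_locus [Smooth π] (x : P) : ∃ n, x ∈ locus π n := by
  obtain ⟨U, hU, V, hV, hx, e, h⟩ := Smooth.exists_isStandardSmooth π x
  obtain ⟨m, hm⟩ := Picfga.CurveRelDim.exists_relativeDimension h
  exact ⟨m, (mem_locus_iff π).mpr ⟨V, hx, smoothOfRelativeDimension_ι_comp π m U hU V hV e hm⟩⟩

theorem iSup_locus [Smooth π] : ⨆ n, locus π n = ⊤ := by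
  rw [eq_top_iff]
  rintro x -
  exact TopologicalSpace.Opens.mem_iSup.mpr (exists_mem_locus π x)

theorem isClosed_locus [Smooth π] (n : ℕ) : IsClosed (locus π n : Set P) := by
  have h : (locus π n : Set P)ᶜ = ⋃ m : {m : ℕ // m ≠ n}, (locus π m.1 : Set P) := by
    ext x
    simp only [Set.mem_compl_iff, SetLike.mem_coe, Set.mem_iUnion]
    constructor
    · intro hx
      obtain ⟨m, hm⟩ := exists_mem_locus π x
      exact ⟨⟨m, fun h => hx (h ▸ hm)⟩, hm⟩
    · rintro ⟨⟨m, hm⟩, hx⟩ hx'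
      exact hm (eq_of_mem_locus π hx hx')
  rw [← isOpen_compl_iff, h]
  exact isOpen_iUnion fun m => (locus π m.1).isOpen

/-- An open immersion with closed range is a closed immersion. -/
theorem isClosedImmersion_ι (U : P.Opens) (h : IsClosed (U : Set P)) : IsClosedImmersion U.ι :=
  .of_isPreimmersion _ (by rwa [Scheme.Opens.range_ι])

instance isClosedImmersion_locus [Smooth π] (n : ℕ) : IsClosedImmersion (locus π n).ι :=
  isClosedImmersion_ι _ (isClosed_locus π n)

instance isProper_locus [Smooth π] [IsProper π] (n : ℕ) : IsProper ((locus π n).ι ≫ π) :=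
  inferInstance

end Groth.Agent.Dual.H328.RelDimDec
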