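import Groth.Agent.Dual.H328.ClopenGlue
import Groth.Agent.Dual.H328.LpullSingle
import Groth.Agent.Dual.H339.TwistFull
import Groth.Agent.LoccohB.AdStruct
import Groth.Agent.Fdesc.LocGenPullback
import Groth.Agent.Fdesc.StructMod
import Groth.Agent.PerfB.TensInv
import Groth.Agent.Krr.H495.Rank
import Groth.Agent.Ega2.QCohLocal
import Groth.Prelude.Def_Dual3

/-!
# The upper shriek of the structure sheaf through a closed immersion into a smooth scheme

* `PropS3635`: `a(O) = Λ^d Ω[d]` for smooth proper morphisms (the statement S3635);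
* `univ_W`: for `s : X → U` closed, `U` open in `P`, `P` smooth proper of relative dimension `n` over `Y`: `f^! O` is
  the universal object of `s` over `Λ^n Ω_U[n]`;
* `length_add`, `isFinLocFreeOfRank_conormal`: the codimension of `s` when `f^! O` is concentrated in degree `-r`;
* `main`: `w ⊗ Λ^m C ≅ s^* Λ^n Ω_U` with `w = H^{-r}(f^! O)`.
-/

set_option autoImplicit false
universe u
open CategoryTheory CategoryTheory.Limits AlgebraicGeometry
attribute [local instance] HasDerivedCategory.standard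

namespace Groth.Agent.Dual.H328.WUniv

open Groth.Agent.Ega1.ADualUniv Groth.Agent.Ega1.ADualOpen Groth.Agent.LoccohB.AdStruct
open Groth.Agent.PerfA.Restrict (restrictD stalkAb stalkRestrict)
open Groth.Agent.Sga67.KosImm Groth.Agent.Sga67.KosGlobal Groth.Agent.Sga67.KosConormal

/-- The statement of S3635. -/
def PropS3635 : Prop :=
  ∀ (S X : Scheme.{u}) [IsNoetherian S] (d : ℕ) (f : X ⟶ S) [IsProper f] [SmoothOfRelativeDimension d f]
    [DCoh.HasRpush f] (hf : DCoh.RpushPreservesQCoh f) (a : DCoh.DQCoh S ⥤ DCoh.DQCoh X)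
    (_ : DCoh.RpushQ f hf ⊣ a) (O : DCoh.DQCoh S) (_ : Nonempty (O.obj ≅ DCoh.inD S (Coh.structureModule S)))
    (L : X.Modules) (_ : ExtPow.IsExtPow d (Omega.sheaf f) L),
    Nonempty ((a.obj O).obj ≅ (DCoh.inD X L)⟦(d : ℤ)⟧)

variable {X Y P W : Scheme.{u}}

/-- Smooth proper morphisms, in terms of universal objects. -/
theorem univ_smooth_proper (H : PropS3635.{u}) [IsNoetherian Y] (π : P ⟶ Y) [IsProper π] (n : ℕ)
    [SmoothOfRelativeDimension n π] [DCoh.HasRpush π] {K : DCoh.D Y} (hK : DCoh.IsQCohD K)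
    (eK : Nonempty (K ≅ DCoh.inD Y (Coh.structureModule Y))) (D : P.Modules)
    (hD : ExtPow.IsExtPow n (Omega.sheaf π) D) : Univ π K ((DCoh.inD P D)⟦(n : ℤ)⟧) := by
  have hP : IsNoetherian P := isNoetherian_of_finiteType π
  have hf : ∀ N : DCoh.D P, DCoh.IsQCohD N → DCoh.IsQCohD ((DCoh.Rpush π).obj N) :=
    fun N hN => S0998.result π N hN
  have := S1766.result P Y π hf
  let adj := Adjunction.ofIsLeftAdjoint (ObjectProperty.lift DCoh.IsQCohD
    (ObjectProperty.ι DCoh.IsQCohD ⋙ DCoh.Rpush π) (fun K => hf K.obj K.property))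
  obtain ⟨e⟩ := H Y P n π hf _ adj ⟨K, hK⟩ eK D hD
  exact (univ_of_adj adj ⟨K, hK⟩).of_iso_left e (PerfA.QCohD.isQCohD_of_iso e (ObjectProperty.FullSubcategory.property _))

/-- `(D[n])|_U ≅ D_U[n]`. -/
theorem nonempty_restrict_shift (U : P.Opens) {D : P.Modules} {D' : U.toScheme.Modules}
    (e : Nonempty (D.restrict U.ι ≅ D')) (n : ℤ) :
    Nonempty ((restrictD U.ι).obj ((DCoh.inD P D)⟦n⟧) ≅ (DCoh.inD U.toScheme D')⟦n⟧) := by
  obtain ⟨e⟩ := e
  exact ⟨((restrictD U.ι).commShiftIso n).app _ ≪≫ (shiftFunctor _ n).mapIso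
    (((Scheme.Modules.restrictFunctor U.ι).mapDerivedCategorySingleFunctor 0).app D ≪≫
      (DerivedCategory.singleFunctor U.toScheme.Modules 0).mapIso e)⟩

/-- `f^! O` is universal for `s` over `Λ^n Ω_U[n]`. -/
theorem univ_W (H : PropS3635.{u}) [IsNoetherian Y] (π : P ⟶ Y) [IsProper π] (n : ℕ)
    [SmoothOfRelativeDimension n π] (U : P.Opens) (s : X ⟶ U) [IsClosedImmersion s] [DCoh.HasRpush s]
    {f : X ⟶ Y} (hf : s ≫ U.ι ≫ π = f) (c : DEt.Compactification f) [DCoh.HasRpush c.fbar]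
    (hc : DCoh.RpushPreservesQCoh c.fbar) (a : DCoh.DQCoh Y ⥤ DCoh.DQCoh c.Xbar)
    (adj : DCoh.RpushQ c.fbar hc ⊣ a) (O : DCoh.DQCoh Y)
    (hO : Nonempty (O.obj ≅ DCoh.inD Y (Coh.structureModule Y))) (D : U.toScheme.Modules)
    (hD : ExtPow.IsExtPow n (Omega.sheaf (U.ι ≫ π)) D) :
    Univ s ((DCoh.inD U.toScheme D)⟦(n : ℤ)⟧) ((Dual3.shriekC c a).obj O) := by
  have := c.isProper
  have := c.isOpenImmersion
  have hsm : Smooth π := SmoothOfRelativeDimension.smooth n π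
  have : DCoh.HasRpush π := Dcoh.DerSch.hasRpush π
  obtain ⟨D₀, hD₀⟩ := H366.ExtQCoh.exists_isExtPow n (ClopenGlue.isQCoh_omega π)
  have h1 := univ_smooth_proper H π n O.property hO D₀ hD₀
  have h2 : Univ c.fbar O.obj (a.obj O).obj := univ_of_adj (h := hc) adj O
  obtain ⟨eO⟩ := hO
  have hOge : O.obj.IsGE 0 := by
    have : (DCoh.inD Y (Coh.structureModule Y)).IsGE 0 :=
      inferInstanceAs (((DerivedCategory.singleFunctor Y.Modules 0).obj _).IsGE 0)
    exact ⟨(DerivedCategory.TStructure.t.isGE_of_iso eO.symm _).ge⟩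
  have h3 := Univ.structure c.fbar π c.j U.ι s (by rw [hf, c.fac]) O.property 0 hOge h2 h1
  obtain ⟨e⟩ := nonempty_restrict_shift U (ClopenGlue.nonempty_ext_restrict π U hD₀ hD) n
  exact h3.of_iso_right e

/-- The top exterior power is invertible. -/
theorem isInvertible_extPow {m : ℕ} {E L : X.Modules} (hE : FlatMod.IsFinLocFreeOfRank m E)
    (hL : ExtPow.IsExtPow m E L) : PicF.IsInvertible L := by
  rw [← Ega2.QCohLocal.isFinLocFreeOfRank_one_iff, Krr.H495.Rank.isFinLocFreeOfRank_iff]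
  have hE' := Krr.H495.Rank.isFinLocFree_of_rank hE
  refine ⟨Sga67.LocBasis.isFinLocFree_of_isExtPow hE' hL, fun x => ?_⟩
  rw [Krr.H495.Rank.rk_extPow hE' hL, Krr.H495.Rank.rk_of_rank hE, Nat.choose_self]

section Codim

variable (s : X ⟶ W) [DCoh.HasLpull s] (n : ℕ) {D : W.Modules} (hD : PicF.IsInvertible D)

include hD in
theorem nonempty_lpull_shift : Nonempty ((DCoh.Lpull s).obj ((DCoh.inD W D)⟦(n : ℤ)⟧) ≅
    (DCoh.inD X ((Scheme.Modules.pullback s).obj D))⟦(n : ℤ)⟧) := by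
  obtain ⟨e⟩ := LpullSingle.nonempty_lpull_inD s D (PerfB.TensInv.isFlat_of_isInvertible hD)
  let _ := Dcoh.DerPull.lpullCommShift s
  exact ⟨((DCoh.Lpull s).commShiftIso (n : ℤ)).app _ ≪≫ (shiftFunctor _ (n : ℤ)).mapIso e⟩

theorem nonempty_HD_inD_shift (M : X.Modules) (n r : ℤ) (h : n + r = 0) :
    Nonempty (DCoh.HD ((DCoh.inD X M)⟦n⟧) r ≅ M) :=
  ⟨LoccohB.DQCohBasic.homologyShiftIso (DCoh.inD X M) n r 0 h ≪≫
    (DerivedCategory.singleFunctorCompHomologyFunctorIso X.Modules 0).app M⟩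

include hD in
theorem nonempty_HD_lpull : Nonempty (DCoh.HD ((DCoh.Lpull s).obj ((DCoh.inD W D)⟦(n : ℤ)⟧)) (-(n : ℤ)) ≅
    (Scheme.Modules.pullback s).obj D) := by
  obtain ⟨e⟩ := nonempty_lpull_shift s n hD
  obtain ⟨e'⟩ := nonempty_HD_inD_shift ((Scheme.Modules.pullback s).obj D) (n : ℤ) (-(n : ℤ)) (by omega)
  exact ⟨(DerivedCategory.homologyFunctor X.Modules (-(n : ℤ))).mapIso e ≪≫ e'⟩

omit [DCoh.HasLpull s] in
theorem isLE_inD_shift (M : X.Modules) (n : ℕ) : ((DCoh.inD X M)⟦(n : ℤ)⟧).IsLE (-(n : ℤ)) := by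
  have h : DerivedCategory.TStructure.t.IsLE (DCoh.inD X M) 0 :=
    inferInstanceAs (((DerivedCategory.singleFunctor X.Modules 0).obj M).IsLE 0)
  exact DerivedCategory.TStructure.t.isLE_shift (DCoh.inD X M) 0 (n : ℤ) (-(n : ℤ)) (by omega)

omit [DCoh.HasLpull s] in
theorem isGE_inD_shift (M : X.Modules) (n : ℕ) : ((DCoh.inD X M)⟦(n : ℤ)⟧).IsGE (-(n : ℤ)) := by
  have h : DerivedCategory.TStructure.t.IsGE (DCoh.inD X M) 0 :=
    inferInstanceAs (((DerivedCategory.singleFunctor X.Modules 0).obj M).IsGE 0)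
  exact DerivedCategory.TStructure.t.isGE_shift (DCoh.inD X M) 0 (n : ℤ) (-(n : ℤ)) (by omega)

include hD in
theorem isQCohD_shift : DCoh.IsQCohD ((DCoh.inD W D)⟦(n : ℤ)⟧) :=
  PerfA.QCohD.isQCohD_shift (PerfA.QCohD.isQCohD_inD _ (PerfB.TensInv.isQCoh_of_isInvertible hD)) n

omit [DCoh.HasLpull s] in
/-- Stalks of invertible modules are nonzero. -/
theorem not_isZero_stalk {M : X.Modules} (hM : PicF.IsInvertible M) (x : X) : ¬ IsZero ((stalkAb x).obj M) := by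
  intro h
  obtain ⟨U, hx, ⟨e⟩⟩ := hM x
  have e1 := (stalkRestrict U.ι ⟨x, hx⟩).app M
  have h1 : IsZero ((stalkAb (⟨x, hx⟩ : U)).obj (Coh.structureModule U.toScheme)) :=
    h.of_iso ((stalkAb _).mapIso e.symm ≪≫ e1)
  have h2 : Nontrivial ((Coh.structureModule U.toScheme).presheaf.stalk (⟨x, hx⟩ : U)) :=
    (Fdesc.StructMod.stalkEquiv (X := U.toScheme) ⟨x, hx⟩).symm.toEquiv.nontrivial
  have h3 : Subsingleton ((stalkAb (⟨x, hx⟩ : U)).obj (Coh.structureModule U.toScheme)) :=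
    AddCommGrpCat.subsingleton_of_isZero h1
  exact (not_subsingleton_iff_nontrivial.mpr h2) h3

variable [IsNoetherian W] [IsClosedImmersion s] [DCoh.HasRpush s]

include hD in
/-- The length of the regular sequence of a chart. -/
theorem length_add (r : ℕ) {F : DCoh.D X} (h : Univ s ((DCoh.inD W D)⟦(n : ℤ)⟧) F)
    (hr : ∀ k : ℤ, k ≠ -(r : ℤ) → IsZero (DCoh.HD F k)) (c : Chart s) (x : X) (hx : s x ∈ c.U) :
    c.l.length + r = n := by
  obtain ⟨e⟩ := H339.LocalDeg.nonempty_chart_iso s c (isQCohD_shift n hD) (-(n : ℤ)) (isGE_inD_shift D n) h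
  by_contra hne
  have h1 : IsZero (DCoh.HD F (c.l.length + -(n : ℤ))) := hr _ (by omega)
  let j := (c.hU.preimage s).fromSpec
  obtain ⟨y, hy⟩ : ∃ y, j y = x := ⟨(c.hU.preimage s).primeIdealOf ⟨x, hx⟩,
    (c.hU.preimage s).fromSpec_primeIdealOf ⟨x, hx⟩⟩
  obtain ⟨e0⟩ := nonempty_HD_lpull s n hD
  let e1 : (DCoh.HD F (c.l.length + -(n : ℤ))).restrict j ≅
      ((Scheme.Modules.pullback s).obj D).restrict j :=
    (PerfA.Restrict.HDrestrict j F _).symm ≪≫
      (LoccohB.DQCohBasic.homologyShiftIso ((restrictD j).obj F) (c.l.length : ℤ) (-(n : ℤ)) _ rfl).symm ≪≫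
      (DerivedCategory.homologyFunctor _ (-(n : ℤ))).mapIso e ≪≫
      PerfA.Restrict.HDrestrict j ((DCoh.Lpull s).obj ((DCoh.inD W D)⟦(n : ℤ)⟧)) (-(n : ℤ)) ≪≫
      (Scheme.Modules.restrictFunctor j).mapIso e0
  have h2 : IsZero (((Scheme.Modules.pullback s).obj D).restrict j) :=
    ((Scheme.Modules.restrictFunctor j).map_isZero h1).of_iso e1.symm
  refine not_isZero_stalk (Fdesc.LocGen.isInvertible_pullback s hD) x ?_
  rw [← hy]
  exact ((stalkAb y).map_isZero h2).of_iso ((stalkRestrict j y).app ((Scheme.Modules.pullback s).obj D)).symm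

include hD in
/-- The conormal module is locally free of rank `n - r`. -/
theorem isFinLocFreeOfRank_conormal (hs : Mor2.IsRegularClosedImmersion s) (r m : ℕ) {F : DCoh.D X}
    (h : Univ s ((DCoh.inD W D)⟦(n : ℤ)⟧) F)
    (hr : ∀ k : ℤ, k ≠ -(r : ℤ) → IsZero (DCoh.HD F k)) (hm : m + r = n) :
    FlatMod.IsFinLocFreeOfRank m (Omega.conormal s) := by
  intro x
  obtain ⟨c, hx, -⟩ := exists_chart hs x ⊤ trivial
  have h1 := length_add s n hD r h hr c x hx
  obtain rfl : c.l.length = m := by omega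
  exact ⟨c.V, hx, Groth.Agent.Sga67.LocBasis.nonempty_restrict_iso_iff.mpr ⟨_, isLocBasis_fN c⟩⟩

include hD in
/-- The twisted fundamental isomorphism. -/
theorem nonempty_tensor_iso (hs : Mor2.IsRegularClosedImmersion s) (r m : ℕ) (hm : m + r = n)
    (hN : FlatMod.IsFinLocFreeOfRank m (Omega.conormal s)) {LC : X.Modules}
    (hLC : ExtPow.IsExtPow m (Omega.conormal s) LC) {F : DCoh.D X}
    (h : Univ s ((DCoh.inD W D)⟦(n : ℤ)⟧) F) :
    Nonempty (CohB1.tensorMod (DCoh.HD F (-(r : ℤ))) LC ≅ (Scheme.Modules.pullback s).obj D) := by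
  obtain ⟨e⟩ := nonempty_lpull_shift s n hD
  have h1 : ((DCoh.Lpull s).obj ((DCoh.inD W D)⟦(n : ℤ)⟧)).IsLE (-(n : ℤ)) := by
    have := isLE_inD_shift ((Scheme.Modules.pullback s).obj D) n
    exact ⟨(DerivedCategory.TStructure.t.isLE_of_iso e.symm _).le⟩
  have h2 : ((DCoh.Lpull s).obj ((DCoh.inD W D)⟦(n : ℤ)⟧)).IsGE (-(n : ℤ)) := by
    have := isGE_inD_shift ((Scheme.Modules.pullback s).obj D) n
    exact ⟨(DerivedCategory.TStructure.t.isGE_of_iso e.symm _).ge⟩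
  obtain ⟨w, ⟨e1⟩, ⟨e2⟩⟩ := H339.TwistFull.main s hs hN hLC (isQCohD_shift n hD) (-(n : ℤ))
    (isGE_inD_shift D n) h (-(n : ℤ)) h1 h2 (r : ℤ) (by omega)
  obtain ⟨e3⟩ := nonempty_HD_inD_shift w (r : ℤ) (-(r : ℤ)) (by omega)
  obtain ⟨e4⟩ := nonempty_HD_lpull s n hD
  let e5 : DCoh.HD F (-(r : ℤ)) ≅ w :=
    (DerivedCategory.homologyFunctor X.Modules (-(r : ℤ))).mapIso e1 ≪≫ e3
  let e6 : CohB1.tensorMod (DCoh.HD F (-(r : ℤ))) LC ≅ CohB1.tensorMod w LC :=
    (DCoh.tensorRightMod LC).mapIso e5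
  exact ⟨e6 ≪≫ e2 ≪≫ e4⟩

end Codim

end Groth.Agent.Dual.H328.WUniv
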